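import Cfsg.Agent.H883.BR.Fam
import Cfsg.Agent.ClassicalGeometry.SympBasic

/-!
# HUB BR, `fam_sp_odd`: definitions (helper858)

* `rho m F K` : the natural representation of `Sp_{2m}(F)` over `K ⊇ F`;
* `rtK v = v ⊗ B(·, v)` (`v` over `K`), `rt K v` (`v` over `F`), `rt2 v w = v ⊗ B(·, w) + w ⊗ B(·, v)`;
* `sp m K` : the symplectic Lie algebra as a subspace of `End V`.
-/

set_option autoImplicit false

namespace Cfsg.Agent.H858.BR

open Cfsg Cfsg.Agent.H883.BR Cfsg.Agent.ClassicalGeometry.SympBasic
open scoped Matrix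

section

variable (m : ℕ) (F : Type*) [Field F] (K : Type*) [Field K] [Algebra F K]

/-- the natural representation over `K` -/
noncomputable def rho : Matrix.symplecticGroup (Fin m) F →* Module.End K (Fin m ⊕ Fin m → K) where
  toFun g := Matrix.toLin' ((g : Matrix (Fin m ⊕ Fin m) (Fin m ⊕ Fin m) F).map (algebraMap F K))
  map_one' := by
    rw [Submonoid.coe_one, Matrix.map_one _ (map_zero _) (map_one _), Matrix.toLin'_one]
    rfl
  map_mul' g h := by
    rw [Submonoid.coe_mul, Matrix.map_mul, Matrix.toLin'_mul]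
    rfl

end

section

variable {m : ℕ} {F : Type*} [Field F] {K : Type*} [Field K] [Algebra F K]

theorem rho_apply (g : Matrix.symplecticGroup (Fin m) F) :
    rho m F K g = Matrix.toLin' ((g : Matrix (Fin m ⊕ Fin m) (Fin m ⊕ Fin m) F).map (algebraMap F K)) := rfl

theorem rho_inj : Function.Injective (rho m F K) := by
  intro g h hgh
  have h1 := (Matrix.toLin' (R := K) (n := Fin m ⊕ Fin m) (m := Fin m ⊕ Fin m)).injective hgh
  apply Subtype.ext
  ext i j
  have h2 := congrFun (congrFun h1 i) j
  exact (algebraMap F K).injective h2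

variable (K) in
/-- the vector over `K` -/
def vk (v : Fin m ⊕ Fin m → F) : Fin m ⊕ Fin m → K := fun j => algebraMap F K (v j)

theorem vk_apply (v : Fin m ⊕ Fin m → F) (j : Fin m ⊕ Fin m) : vk K v j = algebraMap F K (v j) := rfl

theorem vk_add (v w : Fin m ⊕ Fin m → F) : vk K (v + w) = vk K v + vk K w := funext fun _ => map_add _ _ _

theorem vk_sub (v w : Fin m ⊕ Fin m → F) : vk K (v - w) = vk K v - vk K w := funext fun _ => map_sub _ _ _

theorem vk_smul (c : F) (v : Fin m ⊕ Fin m → F) : vk K (c • v) = algebraMap F K c • vk K v :=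
  funext fun _ => map_mul _ _ _

theorem vk_zero : vk K (0 : Fin m ⊕ Fin m → F) = 0 := funext fun _ => map_zero _

theorem vk_injective : Function.Injective (vk K (F := F) (m := m)) := fun _ _ h =>
  funext fun j => (algebraMap F K).injective (congrFun h j)

theorem vk_eq_zero {v : Fin m ⊕ Fin m → F} : vk K v = 0 ↔ v = 0 := by
  rw [← vk_zero (F := F)]
  exact vk_injective.eq_iff

theorem rho_vk (g : Matrix.symplecticGroup (Fin m) F) (v : Fin m ⊕ Fin m → F) :
    rho m F K g (vk K v) = vk K ((g : Matrix (Fin m ⊕ Fin m) (Fin m ⊕ Fin m) F) *ᵥ v) := by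
  rw [rho_apply, Matrix.toLin'_apply]
  funext i
  rw [vk_apply, Matrix.mulVec, dotProduct, Matrix.mulVec, dotProduct, map_sum]
  exact Finset.sum_congr rfl fun j _ => by rw [map_mul]; rfl

theorem form_vk (v w : Fin m ⊕ Fin m → F) :
    sympForm m K (vk K v) (vk K w) = algebraMap F K (sympForm m F v w) := by
  rw [sympForm_eq_sum, sympForm_eq_sum, map_sum]
  exact Finset.sum_congr rfl fun j _ => by rw [map_sub, map_mul, map_mul]; rfl

theorem map_mem (g : Matrix.symplecticGroup (Fin m) F) :
    (g : Matrix (Fin m ⊕ Fin m) (Fin m ⊕ Fin m) F).map (algebraMap F K) ∈ Matrix.symplecticGroup (Fin m) K := by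
  have hJ : (Matrix.J (Fin m) F).map (algebraMap F K) = Matrix.J (Fin m) K := by
    rw [Matrix.J, Matrix.J, Matrix.fromBlocks_map]
    congr 1
    · exact Matrix.map_zero _ (map_zero _)
    · rw [Matrix.map_neg _ (map_neg _), Matrix.map_one _ (map_zero _) (map_one _)]
    · exact Matrix.map_one _ (map_zero _) (map_one _)
    · exact Matrix.map_zero _ (map_zero _)
  have h := SymplecticGroup.mem_iff.1 g.2
  have h1 := congrArg (fun M => M.map (algebraMap F K)) h
  rw [SymplecticGroup.mem_iff]
  simpa only [Matrix.map_mul, hJ, ← Matrix.transpose_map] using h1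

/-- the form is invariant -/
theorem form_rho (g : Matrix.symplecticGroup (Fin m) F) (v w : Fin m ⊕ Fin m → K) :
    sympForm m K (rho m F K g v) (rho m F K g w) = sympForm m K v w := by
  rw [rho_apply, Matrix.toLin'_apply, Matrix.toLin'_apply]
  exact sympForm_mulVec (map_mem g) v w

theorem rho_inv_apply (g : Matrix.symplecticGroup (Fin m) F) (v : Fin m ⊕ Fin m → K) :
    rho m F K g⁻¹ (rho m F K g v) = v := by
  have h : rho m F K g⁻¹ * rho m F K g = 1 := by rw [← map_mul, inv_mul_cancel, map_one]
  exact LinearMap.congr_fun h v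

theorem rho_apply_inv (g : Matrix.symplecticGroup (Fin m) F) (v : Fin m ⊕ Fin m → K) :
    rho m F K g (rho m F K g⁻¹ v) = v := by
  have h : rho m F K g * rho m F K g⁻¹ = 1 := by rw [← map_mul, mul_inv_cancel, map_one]
  exact LinearMap.congr_fun h v

theorem form_rho_left (g : Matrix.symplecticGroup (Fin m) F) (v w : Fin m ⊕ Fin m → K) :
    sympForm m K (rho m F K g v) w = sympForm m K v (rho m F K g⁻¹ w) := by
  rw [← form_rho g v, rho_apply_inv]

theorem form_rho_right (g : Matrix.symplecticGroup (Fin m) F) (v w : Fin m ⊕ Fin m → K) :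
    sympForm m K v (rho m F K g w) = sympForm m K (rho m F K g⁻¹ v) w := by
  rw [← form_rho g _ w, rho_apply_inv]

end

section

variable {m : ℕ} {K : Type*} [Field K]

/-- `v ⊗ B(·, w)` -/
def rt1 (v w : Fin m ⊕ Fin m → K) : Module.End K (Fin m ⊕ Fin m → K) where
  toFun y := sympForm m K y w • v
  map_add' x y := by rw [sympForm_add_left, add_smul]
  map_smul' c x := by rw [sympForm_smul_left, mul_smul, RingHom.id_apply]

theorem rt1_apply (v w y : Fin m ⊕ Fin m → K) : rt1 v w y = sympForm m K y w • v := rfl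

/-- the root element `v ⊗ B(·, v)` -/
def rtK (v : Fin m ⊕ Fin m → K) : Module.End K (Fin m ⊕ Fin m → K) := rt1 v v

theorem rtK_apply (v y : Fin m ⊕ Fin m → K) : rtK v y = sympForm m K y v • v := rfl

variable (K) in
/-- the root element `v ⊗ B(·, v)` for a vector over `F` -/
def rt {F : Type*} [Field F] [Algebra F K] (v : Fin m ⊕ Fin m → F) : Module.End K (Fin m ⊕ Fin m → K) :=
  rtK (vk K v)

theorem rt_apply {F : Type*} [Field F] [Algebra F K] (v : Fin m ⊕ Fin m → F) (y : Fin m ⊕ Fin m → K) :
    rt K v y = sympForm m K y (vk K v) • vk K v := rfl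

/-- the transvections over `K` -/
theorem rho_transv {F : Type*} [Field F] [Algebra F K] (v : Fin m ⊕ Fin m → F) (c : F) :
    rho m F K (transv v c) = 1 + algebraMap F K c • rt K v := by
  rw [rho_apply, coe_transv]
  have h : (sympTransvection m v c).map (algebraMap F K) = sympTransvection m (vk K v) (algebraMap F K c) := by
    rw [← Matrix.mulVec_injective.eq_iff]
    funext x
    rw [sympTransvection_mulVec]
    funext i
    rw [sympTransvection_def]
    have h1 : ((1 : Matrix (Fin m ⊕ Fin m) (Fin m ⊕ Fin m) F) +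
        c • Matrix.vecMulVec v (Matrix.J (Fin m) F *ᵥ v)).map (algebraMap F K) =
        1 + algebraMap F K c • Matrix.vecMulVec (vk K v) (Matrix.J (Fin m) K *ᵥ (vk K v)) := by
      have hJ : Matrix.J (Fin m) K *ᵥ (vk K v) = vk K (Matrix.J (Fin m) F *ᵥ v) := by
        funext j
        rcases j with j | j
        · rw [J_mulVec_inl, vk_apply, vk_apply, J_mulVec_inl, map_neg]
        · rw [J_mulVec_inr, vk_apply, vk_apply, J_mulVec_inr]
      rw [hJ]
      ext i j
      simp only [Matrix.map_apply, Matrix.add_apply, Matrix.smul_apply, Matrix.vecMulVec_apply, smul_eq_mul, map_add,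
        map_mul, vk_apply, Matrix.one_apply]
      split_ifs <;> simp
    rw [h1, ← sympTransvection_def, sympTransvection_mulVec]
  rw [h]
  refine LinearMap.ext fun y => ?_
  rw [Matrix.toLin'_apply, sympTransvection_mulVec]
  change y + _ = y + algebraMap F K c • (sympForm m K y (vk K v) • vk K v)
  rw [smul_smul]

variable (m K) in
/-- the symplectic Lie algebra -/
def sp : Submodule K (Module.End K (Fin m ⊕ Fin m → K)) where
  carrier := {X | ∀ v w, sympForm m K (X v) w + sympForm m K v (X w) = 0}
  zero_mem' v w := by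
    change sympForm m K 0 w + sympForm m K v 0 = 0
    rw [sympForm_zero_left, sympForm_zero_right, add_zero]
  add_mem' := by
    intro X Y hX hY v w
    change sympForm m K (X v + Y v) w + sympForm m K v (X w + Y w) = 0
    rw [sympForm_add_left, sympForm_add_right]
    linear_combination hX v w + hY v w
  smul_mem' := by
    intro c X hX v w
    change sympForm m K (c • X v) w + sympForm m K v (c • X w) = 0
    rw [sympForm_smul_left, sympForm_smul_right]
    linear_combination c * hX v w

theorem mem_sp {X : Module.End K (Fin m ⊕ Fin m → K)} :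
    X ∈ sp m K ↔ ∀ v w, sympForm m K (X v) w + sympForm m K v (X w) = 0 := Iff.rfl

end

end Cfsg.Agent.H858.BR
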