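import Cfsg.Agent.H858.BR.SpSig
import Cfsg.Agent.H178.BR.TrF

/-!
# HUB BR, `fam_sp_odd`: the traces on `sp` lie in `F` (helper858)
-/

set_option autoImplicit false

namespace Cfsg.Agent.H858.BR

open Cfsg Cfsg.Agent.H883.BR Cfsg.Agent.ClassicalGeometry.SympBasic
open scoped Matrix

section

variable {m : ℕ} {K : Type*} [Field K] (τ : K ≃+* K)

/-- `X ↦ X^τ` -/
noncomputable def fr (X : Module.End K (Fin m ⊕ Fin m → K)) : Module.End K (Fin m ⊕ Fin m → K) :=
  Matrix.toLin' ((LinearMap.toMatrix' X).map τ)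

theorem fr_apply (X : Module.End K (Fin m ⊕ Fin m → K)) (y : Fin m ⊕ Fin m → K) :
    fr τ X (fun j => τ (y j)) = fun i => τ (X y i) := by
  have h : X y = (LinearMap.toMatrix' X) *ᵥ y := by
    rw [← Matrix.toLin'_apply, Matrix.toLin'_toMatrix']
  funext i
  rw [fr, Matrix.toLin'_apply, h]
  simp only [Matrix.mulVec, dotProduct, Matrix.map_apply, map_sum, map_mul]

theorem fr_add (X Y : Module.End K (Fin m ⊕ Fin m → K)) : fr τ (X + Y) = fr τ X + fr τ Y := by
  rw [fr, fr, fr, map_add, ← map_add]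
  ext i j
  simp

theorem fr_smul (c : K) (X : Module.End K (Fin m ⊕ Fin m → K)) : fr τ (c • X) = τ c • fr τ X := by
  rw [fr, fr, map_smul, ← map_smul]
  ext i j
  simp

theorem fr_mul (X Y : Module.End K (Fin m ⊕ Fin m → K)) : fr τ (X * Y) = fr τ X * fr τ Y := by
  rw [fr, fr, fr, LinearMap.toMatrix'_mul, Matrix.map_mul, Matrix.toLin'_mul]
  rfl

theorem fr_injective : Function.Injective (fr τ (m := m)) := by
  intro X Y h
  have h1 := (Matrix.toLin' (R := K) (n := Fin m ⊕ Fin m) (m := Fin m ⊕ Fin m)).injective h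
  apply (LinearMap.toMatrix' (R := K) (n := Fin m ⊕ Fin m) (m := Fin m ⊕ Fin m)).injective
  ext i j
  have h2 := congrFun (congrFun h1 i) j
  exact τ.injective h2

theorem form_tau (x y : Fin m ⊕ Fin m → K) :
    sympForm m K (fun j => τ (x j)) (fun j => τ (y j)) = τ (sympForm m K x y) := by
  rw [sympForm_eq_sum, sympForm_eq_sum, map_sum]
  exact Finset.sum_congr rfl fun j _ => by rw [map_sub, map_mul, map_mul]

theorem fr_mem {X : Module.End K (Fin m ⊕ Fin m → K)} (hX : X ∈ sp m K) : fr τ X ∈ sp m K := by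
  intro v w
  have e : ∀ u : Fin m ⊕ Fin m → K, u = fun j => τ (τ.symm (u j)) := fun u => funext fun j => by
    rw [RingEquiv.apply_symm_apply]
  rw [e v, e w, fr_apply, fr_apply, form_tau, form_tau, ← map_add, hX, map_zero]

theorem fr_rho {F : Type*} [Field F] [Algebra F K] (hτ : ∀ c : F, τ (algebraMap F K c) = algebraMap F K c)
    (g : Matrix.symplecticGroup (Fin m) F) : fr τ (rho m F K g) = rho m F K g := by
  rw [fr, rho_apply, LinearMap.toMatrix'_toLin']
  congr 1
  ext i j
  exact hτ _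

end

/-- **the field `trF`** -/
theorem trF {m : ℕ} {F : Type*} [Field F] {K : Type*} [Field K] [Algebra F K] [IsAlgClosed K] {p k : ℕ}
    [hp : Fact p.Prime] [CharP K p] {F1 : Subfield K} [Finite F1] (hq : Nat.card F1 = p ^ k)
    (hF : ∀ c : F, (algebraMap F K c) ^ Nat.card F1 = algebraMap F K c) (g : Matrix.symplecticGroup (Fin m) F) :
    LinearMap.trace K (sp m K) (sig m F K g) ∈ F1 := by
  have hperf : PerfectRing K p := inferInstance
  obtain ⟨τ, hτ⟩ : ∃ τ : K ≃+* K, ∀ c, τ c = c ^ Nat.card F1 :=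
    ⟨iterateFrobeniusEquiv K p k, fun c => by rw [hq]; exact iterateFrobeniusEquiv_apply K p k c⟩
  let φ : ↥(sp m K) →+ ↥(sp m K) :=
    { toFun := fun X => ⟨fr τ X.1, fr_mem τ X.2⟩
      map_zero' := Subtype.ext (by
        have h := fr_smul τ (0 : K) (0 : Module.End K (Fin m ⊕ Fin m → K))
        rw [zero_smul, map_zero, zero_smul] at h
        exact h)
      map_add' := fun X Y => Subtype.ext (fr_add τ X.1 Y.1) }
  have h1 : ∀ (c : K) (X : ↥(sp m K)), φ (c • X) = τ c • φ X := fun c X => Subtype.ext (fr_smul τ c X.1)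
  have h2 : Function.Injective φ := fun X Y h => Subtype.ext (fr_injective τ (congrArg Subtype.val h))
  have hτF : ∀ c : F, τ (algebraMap F K c) = algebraMap F K c := fun c => by rw [hτ, hF]
  have h3 : ∀ X : ↥(sp m K), φ (sig m F K g X) = sig m F K g (φ X) := by
    intro X
    apply Subtype.ext
    change fr τ (ad (rho m F K) g X.1) = ad (rho m F K) g (fr τ X.1)
    rw [ad_apply, ad_apply, fr_mul, fr_mul, fr_rho τ hτF, fr_rho τ hτF]
  exact Cfsg.Agent.H178.BR.trace_mem (K := K) (W := ↥(sp m K)) τ hτ φ h1 h2 h3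

end Cfsg.Agent.H858.BR
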